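import Cfsg.Agent.Lib.CharDeep.FTBound
import Cfsg.Agent.Lib.Char.Conj

/-!
# A coprime automorphism acting on a group of class two and the degree of a faithful character

`A` is a `q`-group with an automorphism `α` of prime order `p ≠ q`, every proper `α`-invariant
subgroup being fixed pointwise.  Then any faithful `α`-invariant character has degree at least
`p - 1`.
-/

set_option autoImplicit false
set_option linter.unusedSectionVars false

namespace Cfsg.Agent.Lib.CharDeep.BlichA

open Cfsg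
open Cfsg.Agent.Lib.Char.Ortho Cfsg.Agent.Lib.Char.Basic Cfsg.Agent.Lib.Char.Complete
  Cfsg.Agent.Lib.Char.Degree Cfsg.Agent.Lib.Char.Induced Cfsg.Agent.Lib.Char.Conj
  Cfsg.Agent.Lib.Coh.DegSum Cfsg.Agent.Lib.OddChar.FixedClass
  Cfsg.Agent.Lib.CharDeep.FrobRelevant
open scoped ComplexConjugate

variable {A : Type*} [Group A]

/-- The commutators `a⁻¹ α(a)`. -/
def commSet (α : MulAut A) : Set A := {c | ∃ a, c = a⁻¹ * α a}

theorem pow_apply_of_fixed (α : MulAut A) {a c : A} (hc : c = a⁻¹ * α a) (hfix : α c = c) (k : ℕ) :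
    (α ^ k) a = a * c ^ k := by
  induction k with
  | zero => simp
  | succ k ih =>
    have hαa : α a = a * c := by rw [hc]; group
    rw [pow_succ', MulAut.mul_apply, ih, map_mul, map_pow, hfix, hαa, pow_succ', mul_assoc]

theorem closure_commSet_eq_top [Finite A] {p q : ℕ} (hp : p.Prime) (hq : q.Prime) (hpq : p ≠ q)
    (hA : IsPGroup q A) (α : MulAut A) (hαp : α ^ p = 1) (hα1 : α ≠ 1)
    (hmin : ∀ B : Subgroup A, B ≠ ⊤ → (∀ b ∈ B, α b ∈ B) → ∀ b ∈ B, α b = b) :
    Subgroup.closure (commSet α) = ⊤ := by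
  by_contra hne
  have hinv : ∀ b ∈ Subgroup.closure (commSet α), α b ∈ Subgroup.closure (commSet α) := by
    have : Subgroup.closure (commSet α) ≤ (Subgroup.closure (commSet α)).comap α.toMonoidHom := by
      rw [Subgroup.closure_le]
      rintro c ⟨a, rfl⟩
      apply Subgroup.subset_closure
      exact ⟨α a, by simp⟩
    exact fun b hb => this hb
  have hfix := hmin _ hne hinv
  apply hα1
  ext a
  have hc : (a⁻¹ * α a) ∈ Subgroup.closure (commSet α) := Subgroup.subset_closure ⟨a, rfl⟩
  have h1 := pow_apply_of_fixed α rfl (hfix _ hc) p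
  rw [hαp, MulAut.one_apply] at h1
  have h2 : (a⁻¹ * α a) ^ p = 1 := by
    have := mul_left_cancel (a := a) (b := 1) (c := (a⁻¹ * α a) ^ p) (by rw [mul_one]; exact h1)
    exact this.symm
  obtain ⟨k, hk⟩ := hA (a⁻¹ * α a)
  have h3 : orderOf (a⁻¹ * α a) ∣ p := orderOf_dvd_of_pow_eq_one h2
  have h4 : orderOf (a⁻¹ * α a) ∣ q ^ k := orderOf_dvd_of_pow_eq_one hk
  have h5 : Nat.Coprime p (q ^ k) := Nat.Coprime.pow_right _ ((Nat.coprime_primes hp hq).mpr hpq)
  have h6 : orderOf (a⁻¹ * α a) = 1 := Nat.Coprime.eq_one_of_dvd (Nat.Coprime.coprime_dvd_left h3 h5) h4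
  rw [orderOf_eq_one_iff] at h6
  rw [MulAut.one_apply]
  exact inv_mul_eq_one.mp h6 |>.symm

theorem commutator_central (α : MulAut A)
    (hmin : ∀ B : Subgroup A, B ≠ ⊤ → (∀ b ∈ B, α b ∈ B) → ∀ b ∈ B, α b = b)
    (htop : Subgroup.closure (commSet α) = ⊤) (hne : commutator A ≠ ⊤)
    {c : A} (hc : c ∈ commutator A) (g : A) : c * g = g * c := by
  have hinv : ∀ b ∈ commutator A, α b ∈ commutator A := by
    intro b hb
    have hch : (commutator A).Characteristic := Subgroup.commutator_characteristic ⊤ ⊤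
    have := hch.fixed α
    have h2 : b ∈ (commutator A).comap α.toMonoidHom := by rw [this]; exact hb
    exact h2
  have hfix := hmin _ hne hinv
  have hcen : Subgroup.centralizer ({c} : Set A) = ⊤ := by
    rw [eq_top_iff, ← htop, Subgroup.closure_le]
    rintro _ ⟨a, rfl⟩
    rw [SetLike.mem_coe, Subgroup.mem_centralizer_singleton_iff]
    have h1 : a * c * a⁻¹ * c⁻¹ ∈ commutator A := by
      apply Subgroup.commutator_mem_commutator (Subgroup.mem_top a) (Subgroup.mem_top c)
    have h2 := hfix _ h1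
    simp only [map_mul, map_inv, hfix c hc] at h2
    have h3 : α a * c * (α a)⁻¹ = a * c * a⁻¹ := mul_right_cancel h2
    have h4 : a⁻¹ * α a * c = c * (a⁻¹ * α a) := by
      calc a⁻¹ * α a * c = a⁻¹ * (α a * c * (α a)⁻¹) * α a := by group
        _ = a⁻¹ * (a * c * a⁻¹) * α a := by rw [h3]
        _ = c * (a⁻¹ * α a) := by group
    exact h4
  have : g ∈ Subgroup.centralizer ({c} : Set A) := by rw [hcen]; trivial
  rw [Subgroup.mem_centralizer_singleton_iff] at this
  exact this.symm

theorem commutator_ne_top_of_pgroup [Finite A] [Nontrivial A] {q : ℕ} [Fact q.Prime]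
    (hA : IsPGroup q A) : commutator A ≠ ⊤ := by
  intro h
  have hnil : Group.IsNilpotent A := hA.isNilpotent
  obtain ⟨n, hn⟩ := Subgroup.nilpotent_iff_lowerCentralSeries.mp hnil
  have hall : ∀ k, (⊤ : Subgroup A).lowerCentralSeries k = ⊤ := by
    intro k
    induction k with
    | zero => rfl
    | succ k ih =>
      rw [Subgroup.lowerCentralSeries_succ, ih]
      exact h
  rw [hall] at hn
  exact top_ne_bot hn

section Fixed

variable [Fintype A] {θ : A → ℂ}

theorem value_on_ctr (hθ : IsIrrCharacter A θ) {a : A} (ha : ∀ w, θ (w * a * w⁻¹ * a⁻¹) = θ 1) :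
    θ a * θ a⁻¹ = θ 1 * θ 1 := by
  obtain ⟨n, ρ, hρ, rfl⟩ := hθ
  have hcomm : ∀ w, ρ a ∘ₗ ρ w = ρ w ∘ₗ ρ a := by
    intro w
    have h1 : ρ (w * a * w⁻¹ * a⁻¹) = 1 := (character_eq_one_iff ρ _).mp (ha w)
    have h2 : w * a = (w * a * w⁻¹ * a⁻¹) * (a * w) := by group
    have h3 : ρ (w * a) = ρ (a * w) := by
      conv_lhs => rw [h2]
      rw [map_mul, h1, one_mul]
    change ρ a * ρ w = ρ w * ρ a
    rw [← map_mul, ← map_mul, h3]
  obtain ⟨ω, hω⟩ := schur_scalar ρ hρ (ρ a) hcomm
  have e1 : ρ.character a = ω * ρ.character 1 := by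
    rw [Representation.character, hω, Representation.character, map_one, map_smul]
    rfl
  have e2 : ω * ρ.character a⁻¹ = ρ.character 1 := by
    have h : ρ (a * a⁻¹) = ω • ρ a⁻¹ := by
      rw [map_mul, hω]
      rfl
    rw [mul_inv_cancel] at h
    rw [Representation.character, Representation.character, h, map_smul]
    rfl
  rw [e1]
  calc ω * ρ.character 1 * ρ.character a⁻¹ = ρ.character 1 * (ω * ρ.character a⁻¹) := by ring
    _ = _ := by rw [e2]

theorem value_off_ctr (hθ : IsIrrCharacter A θ)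
    (hcen : ∀ c ∈ commutator A, ∀ g, c * g = g * c) {a w : A}
    (hc : θ (w * a * w⁻¹ * a⁻¹) ≠ θ 1) : θ a = 0 := by
  have hcl := isClassFunction_of_isIrrCharacter hθ
  set c := w * a * w⁻¹ * a⁻¹ with hcdef
  have hcmem : c ∈ commutator A :=
    Subgroup.commutator_mem_commutator (Subgroup.mem_top _) (Subgroup.mem_top _)
  have hccen : c ∈ Subgroup.center A := Subgroup.mem_center_iff.mpr fun g => (hcen c hcmem g).symm
  have h1 : θ (a * c) * θ 1 = θ a * θ c :=
    Cfsg.Agent.Lib.Char.CentralCount.char_mul_central hθ hccen a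
  have h2 : a * c = w * a * w⁻¹ := by
    rw [← hcen c hcmem a, hcdef]; group
  rw [h2, hcl] at h1
  have h3 : θ a * (θ 1 - θ c) = 0 := by rw [mul_sub, h1]; ring
  rcases mul_eq_zero.mp h3 with h | h
  · exact h
  · exact absurd (sub_eq_zero.mp h).symm hc

/-- The preimage of the centre of `A / ker θ`. -/
noncomputable def ctr (hθ : IsCharacter A θ) : Subgroup A :=
  (Subgroup.center (A ⧸ charKer hθ)).comap (QuotientGroup.mk' (charKer hθ))

instance ctr_normal (hθ : IsCharacter A θ) : (ctr hθ).Normal := by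
  unfold ctr
  infer_instance

theorem mem_ctr (hθ : IsCharacter A θ) {a : A} :
    a ∈ ctr hθ ↔ ∀ w, θ (w * a * w⁻¹ * a⁻¹) = θ 1 := by
  rw [ctr, Subgroup.mem_comap, Subgroup.mem_center_iff]
  constructor
  · intro h w
    have h1 := h (QuotientGroup.mk w)
    have h2 : w * a * w⁻¹ * a⁻¹ ∈ charKer hθ := by
      rw [← QuotientGroup.eq_one_iff]
      simp only [QuotientGroup.mk_mul, QuotientGroup.mk_inv]
      have h3 : (QuotientGroup.mk w : A ⧸ charKer hθ) * QuotientGroup.mk a =
          QuotientGroup.mk a * QuotientGroup.mk w := h1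
      rw [h3]
      group
    exact h2
  · intro h g
    obtain ⟨w, rfl⟩ := QuotientGroup.mk_surjective g
    have h2 : w * a * w⁻¹ * a⁻¹ ∈ charKer hθ := h w
    rw [← QuotientGroup.eq_one_iff] at h2
    simp only [QuotientGroup.mk_mul, QuotientGroup.mk_inv] at h2
    change (QuotientGroup.mk w : A ⧸ charKer hθ) * QuotientGroup.mk a = QuotientGroup.mk a * QuotientGroup.mk w
    have h3 := mul_inv_eq_one.mp h2
    have h4 := mul_inv_eq_iff_eq_mul.mp h3
    exact h4

theorem card_eq_ctr (hθ : IsIrrCharacter A θ) (hcen : ∀ c ∈ commutator A, ∀ g, c * g = g * c) :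
    Nat.card A = Nat.card (ctr (isCharacter_of_isIrrCharacter hθ)) * charDegree θ ^ 2 := by
  classical
  have hθc := isCharacter_of_isIrrCharacter hθ
  have hnorm := classInner_self_of_isIrr hθ
  have hc : (Nat.card A : ℂ) ≠ 0 := card_ne_zero_complex
  have h1 : ∑ a : A, θ a * conj (θ a) = (Nat.card A : ℂ) := by
    rw [classInner, inv_mul_eq_div, div_eq_one_iff_eq hc] at hnorm
    exact hnorm
  have h2 : ∀ a : A, θ a * conj (θ a) =
      if a ∈ ctr hθc then θ 1 * θ 1 else 0 := by
    intro a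
    rw [← char_inv_eq_conj hθc]
    split_ifs with h
    · exact value_on_ctr hθ ((mem_ctr hθc).mp h)
    · rw [mem_ctr] at h
      push Not at h
      obtain ⟨w, hw⟩ := h
      rw [value_off_ctr hθ hcen hw, zero_mul]
  rw [Finset.sum_congr rfl (fun a _ => h2 a), ← Finset.sum_filter, Finset.sum_const, nsmul_eq_mul,
    Cfsg.Agent.Lib.CharDeep.FTBound.card_filter_mem, ← charDegree_natCast hθc] at h1
  have h3 : ((Nat.card (ctr hθc) * charDegree θ ^ 2 : ℕ) : ℂ) = (Nat.card A : ℂ) := by
    push_cast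
    rw [← h1]
    ring
  exact_mod_cast h3.symm

/-- The key congruence for a fixed irreducible character. -/
theorem sq_modEq {p : ℕ} [Fact p.Prime] (hθ : IsIrrCharacter A θ) (α : MulAut A) (hαp : α ^ p = 1)
    (htop : Subgroup.closure (commSet α) = ⊤)
    (hcen : ∀ c ∈ commutator A, ∀ g, c * g = g * c) (hfix : ∀ a, θ (α a) = θ a) :
    charDegree θ ^ 2 ≡ 1 [MOD p] := by
  classical
  have hθc := isCharacter_of_isIrrCharacter hθ
  set W := ctr hθc with hW
  have hαW : ∀ a ∈ W, α a ∈ W := by
    intro a ha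
    rw [hW, mem_ctr] at ha ⊢
    intro w
    have h1 := ha (α.symm w)
    have h2 : w * α a * w⁻¹ * (α a)⁻¹ = α (α.symm w * a * (α.symm w)⁻¹ * a⁻¹) := by
      simp
    rw [h2, hfix, h1]
  have hcommW : ∀ c ∈ commutator A, c ∈ W := by
    intro c hc
    rw [hW, mem_ctr]
    intro w
    rw [← hcen c hc w]
    congr 1
    group
  have hUcomm : ∀ a b : A, (QuotientGroup.mk (a * b) : A ⧸ W) = QuotientGroup.mk (b * a) := by
    intro a b
    rw [QuotientGroup.eq]
    apply hcommW
    have := Subgroup.commutator_mem_commutator (Subgroup.mem_top b⁻¹) (Subgroup.mem_top a⁻¹)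
    have e : (a * b)⁻¹ * (b * a) = b⁻¹ * a⁻¹ * (b⁻¹)⁻¹ * (a⁻¹)⁻¹ := by group
    rw [e]
    exact this
  have hcomm : ∀ u v : A ⧸ W, u * v = v * u := by
    intro u v
    obtain ⟨a, rfl⟩ := QuotientGroup.mk_surjective u
    obtain ⟨b, rfl⟩ := QuotientGroup.mk_surjective v
    exact hUcomm a b
  let φ : A →* A ⧸ W := MonoidHom.mk' (fun a => (QuotientGroup.mk (a⁻¹ * α a) : A ⧸ W)) (by
    intro a b
    have e : (a * b)⁻¹ * α (a * b) = b⁻¹ * (a⁻¹ * α a) * α b := by
      rw [map_mul]; group
    rw [e, QuotientGroup.mk_mul, QuotientGroup.mk_mul, hcomm (QuotientGroup.mk b⁻¹),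
      mul_assoc]
    rfl)
  have hφ : ∀ a, φ a = (QuotientGroup.mk (a⁻¹ * α a) : A ⧸ W) := fun a => rfl
  have hsurj : Function.Surjective φ := by
    have hle : Subgroup.closure (commSet α) ≤ φ.range.comap (QuotientGroup.mk' W) := by
      rw [Subgroup.closure_le]
      rintro _ ⟨a, rfl⟩
      exact ⟨a, rfl⟩
    rw [htop, top_le_iff] at hle
    intro u
    obtain ⟨b, rfl⟩ := QuotientGroup.mk_surjective u
    have : b ∈ φ.range.comap (QuotientGroup.mk' W) := by rw [hle]; trivial
    exact this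
  have hWker : W ≤ φ.ker := by
    intro a ha
    rw [MonoidHom.mem_ker, hφ, QuotientGroup.eq_one_iff]
    exact W.mul_mem (W.inv_mem ha) (hαW a ha)
  have hindex : φ.ker.index = W.index := by
    rw [Subgroup.index_ker, MonoidHom.range_eq_top.mpr hsurj, Subgroup.card_top]
    rfl
  have hkerW : φ.ker ≤ W := by
    have h1 := Subgroup.relIndex_mul_index hWker
    rw [hindex] at h1
    have h2 : W.relIndex φ.ker = 1 := by
      have h3 : W.index ≠ 0 := Subgroup.index_ne_zero_of_finite
      exact Nat.eq_of_mul_eq_mul_right (Nat.pos_of_ne_zero h3) (by rw [h1, one_mul])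
    exact Subgroup.relIndex_eq_one.mp h2
  have hfixW : ∀ a, a⁻¹ * α a ∈ W → a ∈ W := by
    intro a ha
    apply hkerW
    rw [MonoidHom.mem_ker, hφ, QuotientGroup.eq_one_iff]
    exact ha
  let f : A ⧸ W →* A ⧸ W := QuotientGroup.map W W α.toMonoidHom (fun a ha => hαW a ha)
  have hf : ∀ a, f (QuotientGroup.mk a) = QuotientGroup.mk (α a) := fun a => rfl
  let F : Function.End (A ⧸ W) := fun u => f u
  have hkey : ∀ (k : ℕ) (a : A), (F ^ k) (QuotientGroup.mk a) = QuotientGroup.mk ((α ^ k) a) := by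
    intro k
    induction k with
    | zero => intro a; rfl
    | succ k ih =>
      intro a
      rw [pow_succ', pow_succ', MulAut.mul_apply]
      change F ((F ^ k) (QuotientGroup.mk a)) = _
      rw [ih]
      rfl
  have hFp : F ^ p ^ 1 = 1 := by
    funext u
    obtain ⟨a, rfl⟩ := QuotientGroup.mk_surjective u
    rw [pow_one, hkey, hαp]
    rfl
  letI : Fintype (A ⧸ W) := Fintype.ofFinite _
  have hmod := Equiv.Perm.card_fixedPoints_modEq hFp
  have hfixcard : ∀ inst : Fintype (Function.fixedPoints F),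
      @Fintype.card (Function.fixedPoints F) inst = 1 := by
    intro inst
    rw [Fintype.card_eq_one_iff]
    refine ⟨⟨1, Function.mem_fixedPoints.mpr (map_one f)⟩, ?_⟩
    rintro ⟨u, hu⟩
    apply Subtype.ext
    obtain ⟨a, rfl⟩ := QuotientGroup.mk_surjective u
    have h1 : (QuotientGroup.mk (α a) : A ⧸ W) = QuotientGroup.mk a :=
      Function.mem_fixedPoints.mp hu
    have h2 : a⁻¹ * α a ∈ W := QuotientGroup.eq.mp h1.symm
    exact (QuotientGroup.eq_one_iff a).mpr (hfixW a h2)
  rw [hfixcard] at hmod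
  have hcard : Fintype.card (A ⧸ W) = charDegree θ ^ 2 := by
    have h1 := card_eq_ctr hθ hcen
    have h2 := Subgroup.card_mul_index W
    rw [← Nat.card_eq_fintype_card]
    have h3 : Nat.card W ≠ 0 := Nat.card_pos.ne'
    apply Nat.eq_of_mul_eq_mul_left (Nat.pos_of_ne_zero h3)
    rw [← h1, ← h2]
    rfl
  rw [hcard] at hmod
  exact hmod

/-- A moved irreducible constituent produces `p` different constituents. -/
theorem moved_bound {p : ℕ} [Fact p.Prime] {τ : A → ℂ} (hτ : IsCharacter A τ)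
    (α : MulAut A) (hαp : α ^ p = 1) (hτα : ∀ a, τ (α a) = τ a) (hθ : IsIrrCharacter A θ)
    (hm : classInner τ θ ≠ 0) (hmoved : ∃ a, θ (α a) ≠ θ a) : p ≤ charDegree τ := by
  classical
  have hp : p.Prime := Fact.out
  have hτc := isClassFunction_of_isCharacter hτ
  set ϑ : ℕ → A → ℂ := fun k => θ ∘ ((α ^ k : MulAut A) : A → A) with hϑ
  have hϑirr : ∀ k, IsIrrCharacter A (ϑ k) := fun k => isIrrCharacter_comp_mulEquiv (α ^ k) hθ
  have hτk : ∀ (k : ℕ) (a : A), τ ((α ^ k) a) = τ a := by
    intro k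
    induction k with
    | zero => intro a; simp
    | succ k ih =>
      intro a
      rw [pow_succ', MulAut.mul_apply, hτα, ih]
  have hinner : ∀ k, classInner τ (ϑ k) = classInner τ θ := by
    intro k
    have h1 := classInner_comp_mulEquiv (α ^ k) τ θ
    have h2 : τ ∘ ((α ^ k : MulAut A) : A → A) = τ := funext fun a => hτk k a
    rw [h2] at h1
    exact h1
  -- injectivity
  have hstab : ∀ d : ℕ, 0 < d → d < p → ϑ d ≠ θ := by
    intro d hd0 hdp hfix
    obtain ⟨a, ha⟩ := hmoved
    apply ha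
    have hcop : Nat.Coprime d p := (Nat.coprime_of_lt_prime hd0.ne' hdp hp).symm
    obtain ⟨u, hu⟩ := Nat.exists_mul_mod_eq_one_of_coprime hcop hp.one_lt
    have hall : ∀ (v : ℕ) (b : A), θ ((α ^ (d * v)) b) = θ b := by
      intro v
      induction v with
      | zero => intro b; simp
      | succ v ih =>
        intro b
        rw [mul_add, mul_one, add_comm, pow_add, MulAut.mul_apply]
        have := congrFun hfix ((α ^ (d * v)) b)
        rw [hϑ] at this
        simp only [Function.comp_apply] at this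
        rw [this, ih]
    have h1 : α ^ (d * u) = α := by
      rw [pow_eq_pow_mod (d * u) hαp, hu.2, pow_one]
    have h2 := hall u a
    rwa [h1] at h2
  have hinj : Set.InjOn ϑ (Finset.range p : Set ℕ) := by
    have key : ∀ i j : ℕ, i < j → j < p → ϑ i ≠ ϑ j := by
      intro i j hij hj heq
      apply hstab (j - i) (Nat.sub_pos_of_lt hij) (by omega)
      funext b
      have := congrFun heq ((α ^ i)⁻¹ b)
      simp only [hϑ, Function.comp_apply] at this ⊢
      have e1 : (α ^ i) ((α ^ i)⁻¹ b) = b := by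
        rw [← MulAut.mul_apply, mul_inv_cancel, MulAut.one_apply]
      have e2 : (α ^ j) ((α ^ i)⁻¹ b) = (α ^ (j - i)) b := by
        have : α ^ j = α ^ (j - i) * α ^ i := by rw [← pow_add]; congr 1; omega
        rw [this, MulAut.mul_apply, e1]
      rw [e1, e2] at this
      exact this.symm
    intro i hi j hj hij
    simp only [Finset.coe_range, Set.mem_Iio] at hi hj
    rcases lt_trichotomy i j with h | h | h
    · exact absurd hij (key i j h hj)
    · exact h
    · exact absurd hij.symm (key j i h hi)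
  set s := (Finset.range p).image ϑ with hs
  have hscard : s.card = p := by
    rw [hs, Finset.card_image_of_injOn hinj, Finset.card_range]
  have hirrf : s ⊆ irrFinset A := by
    intro x hx
    obtain ⟨k, -, rfl⟩ := Finset.mem_image.mp hx
    exact mem_irrFinset.mpr (hϑirr k)
  have hsum : τ 1 = ∑ x ∈ irrFinset A, classInner τ x * x 1 := apply_eq_sum hτc 1
  set w : (A → ℂ) → ℝ := fun x => (classInner τ x * x 1).re with hw
  have hnn : ∀ x ∈ irrFinset A, ∃ m d : ℕ, classInner τ x = m ∧ x 1 = d ∧ (x ∈ s → 0 < d) := by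
    intro x hx
    have hxI := mem_irrFinset.mp hx
    have hxc := isCharacter_of_isIrrCharacter hxI
    obtain ⟨m, hm'⟩ := exists_nat_classInner hτ hxc
    refine ⟨m, charDegree x, hm', (charDegree_natCast hxc).symm, fun _ => charDegree_pos hxI⟩
  have hw0 : ∀ x ∈ irrFinset A, 0 ≤ w x := by
    intro x hx
    obtain ⟨m, d, h1, h2, -⟩ := hnn x hx
    simp only [hw, h1, h2, ← Nat.cast_mul, Complex.natCast_re]
    positivity
  have hw1 : ∀ x ∈ s, 1 ≤ w x := by
    intro x hx
    obtain ⟨k, -, rfl⟩ := Finset.mem_image.mp hx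
    obtain ⟨m, d, h1, h2, h3⟩ := hnn _ (hirrf hx)
    have hm0 : m ≠ 0 := by
      rintro rfl
      apply hm
      rw [← hinner k, h1]
      simp
    have hd0 := h3 hx
    simp only [hw, h1, h2, ← Nat.cast_mul, Complex.natCast_re]
    have : 1 ≤ m * d := Nat.mul_pos (Nat.pos_of_ne_zero hm0) hd0
    exact_mod_cast this
  have h1 : (charDegree τ : ℝ) = ∑ x ∈ irrFinset A, w x := by
    have : ((charDegree τ : ℂ)).re = (τ 1).re := by rw [charDegree_natCast hτ]
    rw [Complex.natCast_re] at this
    rw [this, hsum, Complex.re_sum]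
  have h2 : (s.card : ℝ) ≤ ∑ x ∈ s, w x := by
    calc (s.card : ℝ) = ∑ x ∈ s, (1 : ℝ) := by simp
      _ ≤ _ := Finset.sum_le_sum hw1
  have h3 : ∑ x ∈ s, w x ≤ ∑ x ∈ irrFinset A, w x :=
    Finset.sum_le_sum_of_subset_of_nonneg hirrf (fun x hx _ => hw0 x hx)
  have h4 : (p : ℝ) ≤ (charDegree τ : ℝ) := by
    rw [h1, ← hscard]
    exact h2.trans h3
  exact_mod_cast h4

/-- **The degree bound.** -/
theorem degree_bound {p q : ℕ} [Fact p.Prime] [Fact q.Prime] (hpq : p ≠ q) (hA : IsPGroup q A)
    (α : MulAut A) (hαp : α ^ p = 1) (hα1 : α ≠ 1)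
    (hmin : ∀ B : Subgroup A, B ≠ ⊤ → (∀ b ∈ B, α b ∈ B) → ∀ b ∈ B, α b = b)
    {τ : A → ℂ} (hτ : IsCharacter A τ) (hτα : ∀ a, τ (α a) = τ a)
    (hfaith : ∀ g, τ g = τ 1 → g = 1) : p ≤ charDegree τ + 1 := by
  classical
  have hp : p.Prime := Fact.out
  have hq : q.Prime := Fact.out
  have hnt : Nontrivial A := by
    by_contra hnt
    rw [not_nontrivial_iff_subsingleton] at hnt
    apply hα1
    ext a
    exact Subsingleton.elim _ _
  have htop := closure_commSet_eq_top hp hq hpq hA α hαp hα1 hmin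
  have hne := commutator_ne_top_of_pgroup hA
  have hcen : ∀ c ∈ commutator A, ∀ g, c * g = g * c := fun c hc g =>
    commutator_central α hmin htop hne hc g
  have hτc := isClassFunction_of_isCharacter hτ
  have hsum : ∀ g, τ g = ∑ x ∈ irrFinset A, classInner τ x * x g := fun g => apply_eq_sum hτc g
  by_cases hex : ∃ θ ∈ irrFinset A, classInner τ θ ≠ 0 ∧ ((∃ a, θ (α a) ≠ θ a) ∨ θ 1 ≠ 1)
  · obtain ⟨θ, hθ', hm, hc⟩ := hex
    have hθ := mem_irrFinset.mp hθ'
    have hθc := isCharacter_of_isIrrCharacter hθ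
    by_cases hmoved : ∃ a, θ (α a) ≠ θ a
    · have := moved_bound hτ α hαp hτα hθ hm hmoved
      omega
    · have h1 : θ 1 ≠ 1 := by
        rcases hc with hc | hc
        · exact absurd hc hmoved
        · exact hc
      push Not at hmoved
      have hmod := sq_modEq hθ α hαp htop hcen hmoved
      -- `θ 1 ≤ τ 1`
      have hle : charDegree θ ≤ charDegree τ :=
        Cfsg.Agent.Lib.Char.Clifford.deg_le_of_constituent hτ hθ hm
          (charDegree_natCast hτ).symm (charDegree_natCast hθc).symm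
      have hd1 : charDegree θ ≠ 1 := by
        intro h
        apply h1
        rw [← charDegree_natCast hθc, h]
        simp
      have hd0 : 0 < charDegree θ := charDegree_pos hθ
      have hdvd : p ∣ charDegree θ ^ 2 - 1 := by
        exact (Nat.modEq_iff_dvd' (Nat.one_le_pow _ _ hd0)).mp hmod.symm
      have hfac : charDegree θ ^ 2 - 1 = (charDegree θ - 1) * (charDegree θ + 1) := by
        obtain ⟨d, hd⟩ : ∃ d, charDegree θ = d + 1 := ⟨charDegree θ - 1, by omega⟩
        rw [hd]
        simp only [Nat.add_sub_cancel]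
        ring_nf
        omega
      rw [hfac] at hdvd
      rcases (Nat.Prime.dvd_mul hp).mp hdvd with h | h
      · have := Nat.le_of_dvd (by omega) h
        omega
      · have := Nat.le_of_dvd (by omega) h
        omega
  · exfalso
    push Not at hex
    apply hα1
    ext a
    have hc : τ (α a * a⁻¹) = τ 1 := by
      rw [hsum (α a * a⁻¹), hsum 1]
      refine Finset.sum_congr rfl fun θ hθ' => ?_
      by_cases hm : classInner τ θ = 0
      · rw [hm, zero_mul, zero_mul]
      · obtain ⟨h1, h2⟩ := hex θ hθ' hm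
        have hθ := mem_irrFinset.mp hθ'
        have hθc := isCharacter_of_isIrrCharacter hθ
        obtain ⟨lam, hlam⟩ := Cfsg.Agent.Lib.Char.Linear.exists_hom_of_deg_one hθc h2
        congr 1
        rw [hlam]
        simp only [map_mul, map_inv, map_one]
        have h3 := h1 a
        rw [hlam] at h3
        simp only at h3
        have h4 : lam (α a) = lam a := Units.ext h3
        rw [h4]
        simp
    have := hfaith _ hc
    rw [MulAut.one_apply]
    exact mul_inv_eq_one.mp this

end Fixed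

section Action

variable {G : Type*} [Group G] [Fintype G]

/-- **A coprime action forces a large degree.** `Q` is a `q`-subgroup normalized by `x`, the power
`x ^ p` centralizes `Q` and `x` does not. -/
theorem action_bound {τ : G → ℂ} (hτ : IsCharacter G τ) (hfaith : ∀ g, τ g = τ 1 → g = 1)
    {p q : ℕ} [Fact p.Prime] [Fact q.Prime] (hpq : p ≠ q) (Q : Subgroup G) (hQ : IsPGroup q Q)
    {x : G} (hxQ : ∀ a ∈ Q, x * a * x⁻¹ ∈ Q) (hxp : ∀ a ∈ Q, x ^ p * a = a * x ^ p)
    (hne : ∃ a ∈ Q, a * x ≠ x * a) : p ≤ charDegree τ + 1 := by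
  classical
  have hτcl := isClassFunction_of_isCharacter hτ
  set Sp : Set (Subgroup G) :=
    {B | B ≤ Q ∧ (∀ a ∈ B, x * a * x⁻¹ ∈ B) ∧ ∃ a ∈ B, a * x ≠ x * a} with hSp
  obtain ⟨A, hAmin⟩ := (Set.toFinite Sp).exists_minimal ⟨Q, le_rfl, hxQ, hne⟩
  obtain ⟨hAQ, hAx, hAne⟩ := hAmin.1
  have hAmin' : ∀ B ∈ Sp, B ≤ A → A ≤ B := fun B hB h => hAmin.2 hB h
  letI : Fintype A := Fintype.ofFinite _
  let f : A →* A :=
    { toFun := fun a => ⟨x * a * x⁻¹, hAx a a.2⟩
      map_one' := by ext; simp
      map_mul' := fun a b => by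
        apply Subtype.ext
        change x * ((a : G) * b) * x⁻¹ = (x * a * x⁻¹) * (x * b * x⁻¹)
        group }
  have hfinj : Function.Injective f := by
    intro a b hab
    have h1 : x * (a : G) * x⁻¹ = x * b * x⁻¹ := congrArg Subtype.val hab
    apply Subtype.ext
    exact mul_left_cancel (mul_right_cancel h1)
  let α : MulAut A := MulEquiv.ofBijective f (Finite.injective_iff_bijective.mp hfinj)
  have hα : ∀ a : A, ((α a : A) : G) = x * a * x⁻¹ := fun a => rfl
  have hαk : ∀ (k : ℕ) (a : A), (((α ^ k) a : A) : G) = x ^ k * a * (x ^ k)⁻¹ := by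
    intro k
    induction k with
    | zero => intro a; simp
    | succ k ih =>
      intro a
      rw [pow_succ', MulAut.mul_apply, hα, ih, pow_succ']
      group
  have hαp : α ^ p = 1 := by
    ext a
    rw [hαk, hxp a (hAQ a.2), mul_assoc, mul_inv_cancel, mul_one, MulAut.one_apply]
  have hα1 : α ≠ 1 := by
    intro h
    obtain ⟨a, ha, hax⟩ := hAne
    apply hax
    have h1 := hα ⟨a, ha⟩
    rw [h, MulAut.one_apply] at h1
    have h2 : a = x * a * x⁻¹ := h1
    calc a * x = x * a * x⁻¹ * x := by rw [← h2]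
      _ = x * a := by group
  have hmin : ∀ B : Subgroup A, B ≠ ⊤ → (∀ b ∈ B, α b ∈ B) → ∀ b ∈ B, α b = b := by
    intro B hB hinv b hb
    by_contra hbne
    have hmem : B.map A.subtype ∈ Sp := by
      refine ⟨(Subgroup.map_subtype_le B).trans hAQ, ?_, ?_⟩
      · rintro _ ⟨c, hc, rfl⟩
        exact ⟨α c, hinv c hc, rfl⟩
      · refine ⟨b, ⟨b, hb, rfl⟩, ?_⟩
        intro hc
        apply hbne
        apply Subtype.ext
        rw [hα]
        change x * (b : G) * x⁻¹ = b
        rw [← hc]; group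
    have h1 := hAmin' _ hmem (Subgroup.map_subtype_le B)
    apply hB
    rw [eq_top_iff]
    intro c _
    obtain ⟨d, hd, hdc⟩ := h1 c.2
    have : d = c := Subtype.ext hdc
    rwa [← this]
  set τA : A → ℂ := fun a => τ a with hτA
  have hτAc : IsCharacter A τA := isCharacter_restrict A hτ
  have hdeg : charDegree τA = charDegree τ := by
    apply charDegree_eq_of_eq_natCast
    change τ 1 = _
    rw [charDegree_natCast hτ]
  have hbound := degree_bound hpq (hQ.to_le hAQ) α hαp hα1 hmin hτAc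
    (fun a => by
      simp only [hτA]
      rw [hα]
      exact hτcl _ _)
    (fun g hg => by
      apply Subtype.ext
      exact hfaith _ hg)
  rwa [hdeg] at hbound

end Action

end Cfsg.Agent.Lib.CharDeep.BlichA
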