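import Cfsg.Agent.Lib.Char.Eigen
import Cfsg.Agent.Lib.Char.Central

/-!
# Values of characters at `p`-elements

`χ(g) ^ (p ^ a) ≡ χ(1)` modulo `p` in the algebraic integers, when `g ^ (p ^ a) = 1`.
So a character of degree prime to `p` does not vanish at a `p`-element.
-/

set_option autoImplicit false

namespace Cfsg.Agent.Lib.CharDeep.PElt

open Cfsg Module
open Cfsg.Agent.Lib.Char.Eigen

universe u v

/-- Freshman's dream for a finite sum, in a commutative ring. -/
theorem exists_sum_pow_eq {R : Type*} [CommRing R] {p : ℕ} (hp : p.Prime) (a : ℕ) {ι : Type*}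
    (s : Finset ι) (f : ι → R) :
    ∃ r : R, (∑ i ∈ s, f i) ^ p ^ a = ∑ i ∈ s, f i ^ p ^ a + p * r := by
  classical
  induction s using Finset.induction_on with
  | empty =>
    refine ⟨0, ?_⟩
    have : p ^ a ≠ 0 := pow_ne_zero _ hp.ne_zero
    simp [zero_pow this]
  | insert i s hi ih =>
    obtain ⟨r, hr⟩ := ih
    obtain ⟨r', hr'⟩ := exists_add_pow_prime_pow_eq hp (f i) (∑ i ∈ s, f i) a
    refine ⟨r + f i * (∑ i ∈ s, f i) * r', ?_⟩
    rw [Finset.sum_insert hi, Finset.sum_insert hi, hr', hr]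
    ring

variable {G : Type u} [Group G] [Finite G]
variable {V : Type v} [AddCommGroup V] [Module ℂ V] [FiniteDimensional ℂ V]

/-- The congruence for characters at `p`-elements. -/
theorem exists_character_pow_eq (ρ : Representation ℂ G V) {p : ℕ} (hp : p.Prime) (a : ℕ) {g : G}
    (hg : g ^ p ^ a = 1) :
    ∃ r : ℂ, IsIntegral ℤ r ∧
      ρ.character g ^ p ^ a = (finrank ℂ V : ℂ) + p * r := by
  obtain ⟨μ, h1, h2⟩ := character_eq_sum_roots' ρ g
  have hμ : ∀ i, μ i ^ p ^ a = 1 := by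
    intro i
    obtain ⟨m, hm⟩ := orderOf_dvd_of_pow_eq_one hg
    rw [hm, pow_mul, h1, one_pow]
  have hint : ∀ i, IsIntegral ℤ (μ i) := fun i =>
    IsIntegral.of_pow (pow_pos hp.pos a) (by rw [hμ i]; exact isIntegral_one)
  let R := integralClosure ℤ ℂ
  let m : Fin (finrank ℂ V) → R := fun i => ⟨μ i, hint i⟩
  obtain ⟨r, hr⟩ := exists_sum_pow_eq (R := R) hp a Finset.univ m
  refine ⟨(r : ℂ), r.2, ?_⟩
  have h3 := congrArg (integralClosure ℤ ℂ).val hr
  simp only [map_add, map_mul, map_pow, map_sum, map_natCast] at h3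
  have hv : ∀ i, (integralClosure ℤ ℂ).val (m i) = μ i := fun i => rfl
  simp only [hv, hμ] at h3
  rw [h2, h3]
  simp

/-- A character of degree prime to `p` does not vanish at a `p`-element. -/
theorem character_ne_zero (ρ : Representation ℂ G V) {p : ℕ} (hp : p.Prime) (a : ℕ) {g : G}
    (hg : g ^ p ^ a = 1) (hnd : ¬ p ∣ finrank ℂ V) : ρ.character g ≠ 0 := by
  intro h0
  obtain ⟨r, hr, he⟩ := exists_character_pow_eq ρ hp a hg
  rw [h0, zero_pow (pow_ne_zero _ hp.ne_zero)] at he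
  apply hnd
  have hp0 : (p : ℂ) ≠ 0 := Nat.cast_ne_zero.mpr hp.ne_zero
  apply Cfsg.Agent.Lib.Char.Central.nat_dvd_of_isIntegral_div hp.ne_zero
  have h1 : (finrank ℂ V : ℂ) / (p : ℂ) = -r := by
    field_simp
    linear_combination -he
  rw [h1]
  exact hr.neg

end Cfsg.Agent.Lib.CharDeep.PElt
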